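import Cfsg.Agent.H894.SB.LinkAbs
import Cfsg.Agent.H816.MDeg

/-!
# The character of degree `196883` of the Monster on the axes is the character of the space minus one (helper894)
-/

set_option autoImplicit false
set_option maxRecDepth 100000

namespace Cfsg.Agent.H894.SB.Link

open Cfsg Cfsg.Agent.MonsterX Cfsg.Agent.MonsterX.Space Cfsg.Agent.MonsterX.Conc Cfsg.Agent.MonsterX.InstData
open Cfsg.Agent.Characters.Core Module
open Cfsg.Agent.H816.MEigL Cfsg.Agent.H816.MSch Cfsg.Agent.H816.MDeg Cfsg.Agent.H816.IMEig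
open Cfsg.Agent.H816.MCnt Cfsg.Agent.LThreeMBTr
open scoped BigOperators

/-- The spherical function of degree `196883`. -/
noncomputable def om (u : Fin 9) : ℂ := ((vec [752, 80, -16, 23, -4, 8, -4, 2, -1] u : ℤ) : ℂ) / ((752 : ℤ) : ℂ)

theorem om_eq (u : Fin 9) : ((vv u : ℚ) / 32 : ℂ) = (47 / 6 : ℂ) * om u + 1 / 6 := by
  fin_cases u <;> simp [om, vv, vec] <;> norm_num

theorem sum_om : s9 (fun u => (k u : ℤ) * vec [752, 80, -16, 23, -4, 8, -4, 2, -1] u) = 0 := by decide +kernel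

theorem finiteDim : FiniteDimensional ℚ V := by
  apply FiniteDimensional.of_finrank_pos
  rw [M_finrank]
  norm_num

/-- **The link** (for all choices of the instances on the axes). -/
theorem link [Fintype XT] [DecidableEq XT] (g : ↥M.G) :
    (isCol.sub (fun u => ((vec [752, 80, -16, 23, -4, 8, -4, 2, -1] u : ℤ) : ℂ) / ((752 : ℤ) : ℂ))).toRepresentation.character g =
      ((chr V g : ℚ) : ℂ) - 1 := by
  have := finite_G
  have := finiteDim
  have h := dat_196883
  have hE := h.toEig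
  have hd := h.toDeg
  rw [← c_b1] at hE
  have hN : (97239461142009186000 : ℂ) ≠ 0 := by norm_num
  have hS : Col.SS t (fun u => ((vec [752, 80, -16, 23, -4, 8, -4, 2, -1] u : ℤ) : ℂ) / ((752 : ℤ) : ℂ)) ≠ 0 := by
    intro h0
    unfold Col.SS at h0
    rw [h0, mul_zero] at hd
    exact hN hd.symm
  have h1 := isCol.finrank_mul tt_eq hE hS
  rw [← Nat.card_eq_fintype_card, card_XT] at h1
  have hfin : finrank ℂ (Col.WW c (fun u => ((vec [752, 80, -16, 23, -4, 8, -4, 2, -1] u : ℤ) : ℂ) / ((752 : ℤ) : ℂ))) = 196883 := by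
    have h2 : ((97239461142009186000 : ℕ) : ℂ) = ((196883 : ℕ) : ℂ) * Col.SS t (fun u => ((vec [752, 80, -16, 23, -4, 8, -4, 2, -1] u : ℤ) : ℂ) / ((752 : ℤ) : ℂ)) :=
      hd.symm
    rw [h2] at h1
    exact Nat.cast_injective (mul_right_cancel₀ hS h1)
  refine LinkAbs.link_abs M.F (fun x : XT => x.1) isCol tt_eq hE hS ?_ (a := 47 / 6) (b := 1 / 6) (by norm_num) (by norm_num)
    ?_ (fun _ _ => rfl) ?_ g
  · have h3 : ∑ u, (k u : ℤ) * vec [752, 80, -16, 23, -4, 8, -4, 2, -1] u = 0 := by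
      rw [sum9]
      exact sum_om
    have h4 : ∑ u, (k u : ℂ) * ((vec [752, 80, -16, 23, -4, 8, -4, 2, -1] u : ℤ) : ℂ) = 0 := by
      exact_mod_cast congrArg (fun x : ℤ => (x : ℂ)) h3
    calc ∑ u, ((∑ w, t u w : ℕ) : ℂ) * (((vec [752, 80, -16, 23, -4, 8, -4, 2, -1] u : ℤ) : ℂ) / ((752 : ℤ) : ℂ))
        = (∑ u, (k u : ℂ) * ((vec [752, 80, -16, 23, -4, 8, -4, 2, -1] u : ℤ) : ℂ)) / ((752 : ℤ) : ℂ) := by
          rw [Finset.sum_div]
          refine Finset.sum_congr rfl fun u _ => ?_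
          rw [h.hkC, mul_div_assoc]
      _ = 0 := by rw [h4, zero_div]
  · intro x y
    rw [F_eq x.2 y.2]
    have := om_eq (c x y)
    push_cast
    exact this
  · rw [hfin]
    exact M_finrank

/-- The character of the space minus one is an irreducible character of degree `196883`. -/
theorem exists_irr : ∃ χ : IrrCharacter ↥M.G, (∀ g, (χ : ↥M.G → ℂ) g = ((chr V g : ℚ) : ℂ) - 1) ∧
    (χ : ↥M.G → ℂ) 1 = 196883 := by
  classical
  have := finite_G
  have := Fintype.ofFinite XT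
  have hE := dat_196883.toEig
  rw [← c_b1] at hE
  refine ⟨⟨_, isIrrCharacter_of_rep _ (isCol.irr tt_eq hE)⟩, fun g => link g, ?_⟩
  refine (link 1).trans ?_
  have h1 : chr V (1 : ↥M.G) = 196884 := by
    unfold chr
    have e : DistribSMul.toLinearMap ℚ V (1 : ↥M.G) = LinearMap.id := by
      ext1 v
      exact one_smul _ v
    rw [e, LinearMap.trace_id, M_finrank]
    norm_num
  rw [h1]
  norm_num

end Cfsg.Agent.H894.SB.Link
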