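import Cfsg.Agent.H816.IMEig
import Cfsg.Agent.LThreeMBTr.Tr

/-!
# The constituent of a spherical function inside a linear space spanned by the points (helper894)
-/

set_option autoImplicit false
set_option linter.unusedSectionVars false

namespace Cfsg.Agent.H894.SB.LinkAbs

open Cfsg Cfsg.Agent.H816.IMEig Cfsg.Agent.H816.IMEig.Col Module
open Cfsg.Agent.LThreeMBTr
open scoped BigOperators TensorProduct

universe u v w

variable {G : Type u} [Group G] [Finite G] {X : Type v} [MulAction G X] [Fintype X] [DecidableEq X]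
  {ι : Type} [Fintype ι] [DecidableEq ι] {c : X → X → ι} {o : ι} {x₀ z₀ : X} {t : ι → ι → ℕ} {θ : ℂ} {ω : ι → ℂ}
  {V : Type w} [AddCommGroup V] [Module ℚ V] [FiniteDimensional ℚ V] [DistribMulAction G V] [SMulCommClass G ℚ V]

/-- The linear map sending a point to its vector. -/
noncomputable def Phi (ax : X → V) : (X → ℂ) →ₗ[ℂ] ℂ ⊗[ℚ] V where
  toFun f := ∑ x, f x ⊗ₜ[ℚ] ax x
  map_add' f g := by
    rw [← Finset.sum_add_distrib]
    exact Finset.sum_congr rfl fun x _ => by rw [Pi.add_apply, TensorProduct.add_tmul]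
  map_smul' r f := by
    rw [RingHom.id_apply, Finset.smul_sum]
    exact Finset.sum_congr rfl fun x _ => by rw [Pi.smul_apply, TensorProduct.smul_tmul']

theorem Phi_apply (ax : X → V) (f : X → ℂ) : Phi ax f = ∑ x, f x ⊗ₜ[ℚ] ax x := rfl

/-- The columns have sum zero. -/
theorem sum_ee (h : Col G X ι c o) (ht : ∀ u w, tt c x₀ z₀ u w = t u w)
    (h0 : ∑ u, ((∑ w, t u w : ℕ) : ℂ) * ω u = 0) (y : X) : ∑ x, ω (c y x) = 0 := by
  have hk : ∀ u, ∑ w, t u w = kk c y u := fun u => by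
    rw [h.kk_eq y x₀ u, kk_eq_sum x₀ z₀ u]
    exact Finset.sum_congr rfl fun w _ => (ht u w).symm
  simp only [hk] at h0
  rw [← h0]
  have h5 : ∀ u, (kk c y u : ℂ) * ω u = ∑ z, if c y z = u then ω u else 0 := by
    intro u
    rw [← Finset.sum_filter, Finset.sum_const, nsmul_eq_mul]
    congr 1
    unfold kk
    rw [Nat.card_eq_fintype_card, Fintype.card_subtype]
  simp only [h5]
  rw [Finset.sum_comm]
  refine Finset.sum_congr rfl fun z _ => ?_
  rw [Finset.sum_ite_eq]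
  simp

theorem sum_mem (h : Col G X ι c o) (ht : ∀ u w, tt c x₀ z₀ u w = t u w)
    (h0 : ∑ u, ((∑ w, t u w : ℕ) : ℂ) * ω u = 0) {f : X → ℂ} (hf : f ∈ WW c ω) : ∑ x, f x = 0 := by
  refine Submodule.span_induction (p := fun v _ => ∑ x, v x = 0) ?_ ?_ ?_ ?_ hf
  · rintro _ ⟨y, rfl⟩
    rw [← sum_ee h ht h0 y]
    exact Finset.sum_congr rfl fun x _ => by
      show ω (c x y) = ω (c y x)
      rw [h.symm]
  · simp
  · intro x y _ _ hx hy
    simp only [Pi.add_apply, Finset.sum_add_distrib, hx, hy, add_zero]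
  · intro a x _ hx
    simp only [Pi.smul_apply, ← Finset.smul_sum, hx, smul_zero]

variable (F : LinearMap.BilinForm ℚ V) (ax : X → V)

/-- The form on a point. -/
theorem form_Phi (h : Col G X ι c o) {a b : ℂ} (hF : ∀ x y, ((F (ax x) (ax y) : ℚ) : ℂ) = a * ω (c x y) + b)
    (f : X → ℂ) (y : X) :
    (F.baseChange ℂ) (Phi ax f) (1 ⊗ₜ[ℚ] ax y) = a * EE c ω f y + b * ∑ x, f x := by
  rw [Phi_apply, map_sum, LinearMap.sum_apply, EE_apply, Finset.sum_apply, Finset.mul_sum, Finset.mul_sum,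
    ← Finset.sum_add_distrib]
  refine Finset.sum_congr rfl fun x _ => ?_
  rw [LinearMap.BilinForm.baseChange_tmul]
  have h1 : ((F (ax x) (ax y) : ℚ) : ℂ) = a * ω (c x y) + b := hF x y
  have h2 : (f x • ee c ω x) y = f x * ω (c x y) := by
    show f x * ω (c y x) = _
    rw [h.symm]
  rw [h2]
  have h3 : (F (ax x) (ax y)) • (f x * 1) = ((F (ax x) (ax y) : ℚ) : ℂ) * f x := by
    rw [mul_one, Rat.smul_def]
  rw [h3, h1]
  ring

/-- The map of the constituent plus the constants into the space. -/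
noncomputable def Psi (U : Submodule ℂ (X → ℂ)) (ax : X → V) : (U × ℂ) →ₗ[ℂ] ℂ ⊗[ℚ] V :=
  (Phi ax).comp (LinearMap.coprod U.subtype (LinearMap.toSpanSingleton ℂ (X → ℂ) (fun _ => 1)))

/-- The constant function. -/
def one1 (X : Type v) : X → ℂ := fun _ => 1

theorem Psi_apply (U : Submodule ℂ (X → ℂ)) (p : U × ℂ) : Psi U ax p = Phi ax ((p.1 : X → ℂ) + p.2 • one1 X) := rfl

theorem Psi_injective {U : Submodule ℂ (X → ℂ)} (hU : U ≤ WW c ω) (h : Col G X ι c o) (ht : ∀ u w, tt c x₀ z₀ u w = t u w) (hE : Eig (c x₀ z₀) o t θ ω)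
    (hS : SS t ω ≠ 0) (h0 : ∑ u, ((∑ w, t u w : ℕ) : ℂ) * ω u = 0) {a b : ℂ} (ha : a ≠ 0) (hb : b ≠ 0)
    (hF : ∀ x y, ((F (ax x) (ax y) : ℚ) : ℂ) = a * ω (c x y) + b) : Function.Injective (Psi U ax) := by
  rw [← LinearMap.ker_eq_bot, LinearMap.ker_eq_bot']
  rintro ⟨f, r⟩ hfr
  rw [Psi_apply] at hfr
  have hN : (Fintype.card X : ℂ) ≠ 0 := by
    have : Nonempty X := ⟨x₀⟩
    exact_mod_cast (Fintype.card_pos (α := X)).ne'
  have hf0 := sum_mem h ht h0 (hU f.2)
  have h1 : ∀ y, a * (SS t ω * (f : X → ℂ) y) + b * (r * (Fintype.card X : ℂ)) = 0 := by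
    intro y
    have e1 := form_Phi F ax h hF ((f : X → ℂ) + r • one1 X) y
    have e2 : Phi ax ((f : X → ℂ) + r • one1 X) = 0 := hfr
    rw [e2, map_zero, LinearMap.zero_apply, map_add, map_smul, h.EE_of_mem ht hE (hU f.2)] at e1
    have e3 : EE c ω (one1 X) y = 0 := by
      rw [EE_apply, Finset.sum_apply, ← sum_ee h ht h0 y]
      refine Finset.sum_congr rfl fun x _ => ?_
      show (1 : ℂ) * ω (c y x) = _
      rw [one_mul]
    have e4 : ∑ x, ((f : X → ℂ) + r • one1 X) x = r * (Fintype.card X : ℂ) := by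
      simp only [Pi.add_apply, Pi.smul_apply, smul_eq_mul, one1, mul_one, Finset.sum_add_distrib, hf0, zero_add,
        Finset.sum_const, Finset.card_univ, nsmul_eq_mul]
      ring
    rw [e4, Pi.add_apply, Pi.smul_apply, Pi.smul_apply, smul_eq_mul, smul_eq_mul, e3, mul_zero, add_zero] at e1
    exact e1.symm
  have hr : r = 0 := by
    have e1 : ∑ y, (a * (SS t ω * (f : X → ℂ) y) + b * (r * (Fintype.card X : ℂ))) = 0 :=
      Finset.sum_eq_zero fun y _ => h1 y
    rw [Finset.sum_add_distrib, ← Finset.mul_sum, ← Finset.mul_sum, hf0, mul_zero, mul_zero, zero_add,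
      Finset.sum_const, Finset.card_univ, nsmul_eq_mul] at e1
    have e2 : (Fintype.card X : ℂ) * (b * (r * (Fintype.card X : ℂ))) = 0 := e1
    simp only [mul_eq_zero, hN, hb, or_false, false_or] at e2
    exact e2
  have hf : f = 0 := by
    apply Subtype.ext
    funext y
    have e1 := h1 y
    rw [hr, zero_mul, mul_zero, add_zero] at e1
    simp only [mul_eq_zero, ha, hS, false_or] at e1
    exact e1
  rw [hr, hf]
  rfl

/-- The action on the complexified space. -/
noncomputable def act (V : Type w) [AddCommGroup V] [Module ℚ V] [DistribMulAction G V] [SMulCommClass G ℚ V] (g : G) :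
    ℂ ⊗[ℚ] V →ₗ[ℂ] ℂ ⊗[ℚ] V := LinearMap.baseChange ℂ (DistribSMul.toLinearMap ℚ V g)

theorem act_Phi (hax : ∀ (g : G) x, ax (g • x) = g • ax x) (g : G) (f : X → ℂ) :
    act V g (Phi ax f) = Phi ax (prep G X g f) := by
  rw [Phi_apply, Phi_apply, map_sum]
  symm
  refine (Fintype.sum_equiv (MulAction.toPerm g) _ _ fun x => ?_).symm
  show (LinearMap.baseChange ℂ (DistribSMul.toLinearMap ℚ V g)) (f x ⊗ₜ[ℚ] ax x) = f (g⁻¹ • g • x) ⊗ₜ[ℚ] ax (g • x)
  rw [LinearMap.baseChange_tmul, inv_smul_smul, hax]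
  rfl

theorem act_Psi (h : Col G X ι c o) (hax : ∀ (g : G) x, ax (g • x) = g • ax x) (g : G)
    (p : (h.sub ω).toSubmodule × ℂ) : act V g (Psi (h.sub ω).toSubmodule ax p) =
      Psi (h.sub ω).toSubmodule ax (LinearMap.prodMap ((h.sub ω).toRepresentation g) LinearMap.id p) := by
  rw [Psi_apply, Psi_apply, act_Phi ax hax, map_add, map_smul]
  rfl

/-- **The character of the space is the constituent plus one.** -/
theorem link_abs (h : Col G X ι c o) (ht : ∀ u w, tt c x₀ z₀ u w = t u w) (hE : Eig (c x₀ z₀) o t θ ω)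
    (hS : SS t ω ≠ 0) (h0 : ∑ u, ((∑ w, t u w : ℕ) : ℂ) * ω u = 0) {a b : ℂ} (ha : a ≠ 0) (hb : b ≠ 0)
    (hF : ∀ x y, ((F (ax x) (ax y) : ℚ) : ℂ) = a * ω (c x y) + b) (hax : ∀ (g : G) x, ax (g • x) = g • ax x)
    (hdim : finrank ℚ V = finrank ℂ (WW c ω) + 1) (g : G) :
    (h.sub ω).toRepresentation.character g = ((chr V g : ℚ) : ℂ) - 1 := by
  have hinj := Psi_injective F ax (U := (h.sub ω).toSubmodule) le_rfl h ht hE hS h0 ha hb hF
  have hfin : finrank ℂ ((h.sub ω).toSubmodule × ℂ) = finrank ℂ (ℂ ⊗[ℚ] V) := by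
    rw [Module.finrank_prod, Module.finrank_self, Module.finrank_baseChange, hdim]
    rfl
  have hfd : FiniteDimensional ℂ (ℂ ⊗[ℚ] V) := inferInstance
  let e : ((h.sub ω).toSubmodule × ℂ) ≃ₗ[ℂ] ℂ ⊗[ℚ] V :=
    LinearEquiv.ofInjectiveOfFinrankEq (Psi (h.sub ω).toSubmodule ax) hinj hfin
  have he : ∀ p, e p = Psi (h.sub ω).toSubmodule ax p := fun p => rfl
  have hconj : e.conj (LinearMap.prodMap ((h.sub ω).toRepresentation g) LinearMap.id) = act V g := by
    refine LinearMap.ext fun v => ?_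
    obtain ⟨p, rfl⟩ := e.surjective v
    rw [LinearEquiv.conj_apply_apply, LinearEquiv.symm_apply_apply, he, he, act_Psi ax h hax]
  have h1 : LinearMap.trace ℂ (ℂ ⊗[ℚ] V) (act V g) = ((chr V g : ℚ) : ℂ) := by
    unfold act chr
    rw [LinearMap.trace_baseChange]
    rfl
  rw [← h1, ← hconj, LinearMap.trace_conj', LinearMap.trace_prodMap', LinearMap.trace_id, Module.finrank_self,
    Nat.cast_one]
  unfold Representation.character
  exact (add_sub_cancel_right _ _).symm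

end Cfsg.Agent.H894.SB.LinkAbs
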